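import Cfsg.Agent.H978.SimsRed
import Cfsg.Agent.H954.CWarn
import Cfsg.Agent.LieClassical.SympCenter
import Cfsg.Prelude.Def_Classical

/-!
# S3386: the symplectic groups (helper978)
-/

set_option autoImplicit false

namespace Cfsg.Agent.H978.SimsPSp

open Cfsg.Agent.H851.Sims Subgroup Matrix

section lin

variable {ι F Y : Type} [Fintype ι] [DecidableEq ι] [Field F] [Group Y]

/-- a homomorphism from a group to the monoid of matrices, as a homomorphism to the group of linear automorphisms -/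
noncomputable def linHom (ρ : Y →* Matrix ι ι F) : Y →* ((ι → F) ≃ₗ[F] (ι → F)) where
  toFun y := LinearEquiv.ofLinearMap (Matrix.toLin' (ρ y)) (Matrix.toLin' (ρ y⁻¹))
    (by rw [← Matrix.toLin'_mul, ← map_mul, mul_inv_cancel, map_one, Matrix.toLin'_one])
    (by rw [← Matrix.toLin'_mul, ← map_mul, inv_mul_cancel, map_one, Matrix.toLin'_one])
  map_one' := by
    apply LinearEquiv.ext
    intro v
    change Matrix.toLin' (ρ 1) v = v
    rw [map_one, Matrix.toLin'_one]
    rfl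
  map_mul' x y := by
    apply LinearEquiv.ext
    intro v
    change Matrix.toLin' (ρ (x * y)) v = Matrix.toLin' (ρ x) (Matrix.toLin' (ρ y) v)
    rw [map_mul, Matrix.toLin'_mul]
    rfl

theorem linHom_apply (ρ : Y →* Matrix ι ι F) (y : Y) (v : ι → F) : linHom ρ y v = ρ y *ᵥ v := Matrix.toLin'_apply _ _

theorem linHom_injective (ρ : Y →* Matrix ι ι F) (h : Function.Injective ρ) : Function.Injective (linHom ρ) := by
  intro x y hxy
  apply h
  apply Matrix.ext_of_mulVec_single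
  intro i
  rw [← linHom_apply, ← linHom_apply, hxy]

/-- a linear automorphism whose matrix is in the image -/
theorem mem_range_linHom (ρ : Y →* Matrix ι ι F) (g : (ι → F) ≃ₗ[F] (ι → F)) (y : Y)
    (h : ρ y = LinearMap.toMatrix' (g : (ι → F) →ₗ[F] (ι → F))) : g ∈ (linHom ρ).range := by
  refine ⟨y, ?_⟩
  apply LinearEquiv.ext
  intro v
  rw [linHom_apply, h]
  exact LinearMap.toMatrix'_mulVec (g : (ι → F) →ₗ[F] (ι → F)) v

theorem ext_dot {A B : Matrix ι ι F} (h : ∀ u v, u ⬝ᵥ (A *ᵥ v) = u ⬝ᵥ (B *ᵥ v)) : A = B := by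
  ext i j
  have := h (Pi.single i 1) (Pi.single j 1)
  simpa using this

end lin

variable {m : ℕ} {F : Type} [Field F]

/-- the symplectic form -/
def D (m : ℕ) (F : Type) [Field F] : FormData F (Fin m ⊕ Fin m → F) where
  σ := RingHom.id F
  f u v := u ⬝ᵥ (J (Fin m) F *ᵥ v)
  Q _ := 0
  θ := 0
  add_left u v w := add_dotProduct _ _ _
  smul_left a u w := by rw [smul_dotProduct, smul_eq_mul]
  add_right u v w := by rw [mulVec_add, dotProduct_add]
  smul_right a u w := by rw [mulVec_smul, dotProduct_smul, smul_eq_mul, RingHom.id_apply]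
  refl u v h := by
    rw [dotProduct_comm, ← vecMul_transpose, ← dotProduct_mulVec, J_transpose, neg_mulVec, dotProduct_neg]
    rw [dotProduct_comm] at h
    rw [dotProduct_comm, h, neg_zero]
  nondeg u h := by
    have h1 : ∀ w, u ⬝ᵥ w = 0 := by
      intro w
      have h2 := h (-(J (Fin m) F *ᵥ w))
      rw [mulVec_neg, mulVec_mulVec, J_squared, neg_mulVec, one_mulVec, neg_neg] at h2
      exact h2
    exact dotProduct_eq_zero u h1
  Q_add _ _ := by simp
  Q_smul _ _ _ := rfl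

/-- the natural representation -/
noncomputable abbrev Phi (m : ℕ) (F : Type) [Field F] :
    symplecticGroup (Fin m) F →* ((Fin m ⊕ Fin m → F) ≃ₗ[F] (Fin m ⊕ Fin m → F)) :=
  linHom (Submonoid.subtype (symplecticGroup (Fin m) F))

theorem form_mul (A : Matrix (Fin m ⊕ Fin m) (Fin m ⊕ Fin m) F) (u v : Fin m ⊕ Fin m → F) :
    (A *ᵥ u) ⬝ᵥ (J (Fin m) F *ᵥ (A *ᵥ v)) = u ⬝ᵥ ((Aᵀ * J (Fin m) F * A) *ᵥ v) := by
  rw [← vecMul_transpose, ← dotProduct_mulVec, mulVec_mulVec, mulVec_mulVec, Matrix.mul_assoc]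

theorem range_le : (Phi m F).range ≤ (D m F).isom := by
  rintro _ ⟨A, rfl⟩
  refine ⟨fun u v => ?_, fun v => rfl⟩
  rw [linHom_apply, linHom_apply]
  change (A.1 *ᵥ u) ⬝ᵥ (J (Fin m) F *ᵥ (A.1 *ᵥ v)) = u ⬝ᵥ (J (Fin m) F *ᵥ v)
  rw [form_mul, SymplecticGroup.mem_iff'.1 A.2]

theorem le_range : (D m F).isom ≤ (Phi m F).range := by
  intro g hg
  set M := LinearMap.toMatrix' (g : (Fin m ⊕ Fin m → F) →ₗ[F] (Fin m ⊕ Fin m → F)) with hM
  have hv : ∀ v, M *ᵥ v = g v := fun v =>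
    LinearMap.toMatrix'_mulVec (g : (Fin m ⊕ Fin m → F) →ₗ[F] (Fin m ⊕ Fin m → F)) v
  have h1 : M ∈ symplecticGroup (Fin m) F := by
    rw [SymplecticGroup.mem_iff']
    apply ext_dot
    intro u v
    rw [← form_mul, hv, hv]
    exact hg.1 u v
  exact mem_range_linHom _ g ⟨M, h1⟩ rfl

theorem center_scalar (z : symplecticGroup (Fin m) F) (hz : z ∈ center (symplecticGroup (Fin m) F)) :
    ∃ a : F, ∀ v, Phi m F z v = a • v := by
  obtain ⟨a, ha⟩ := LieClassical.SympCenter.scalar_of_commute m z.1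
    (fun T hT => congrArg Subtype.val (mem_center_iff.1 hz ⟨_, LieClassical.SympCenter.upper_mem m hT⟩).symm)
    (fun T hT => congrArg Subtype.val (mem_center_iff.1 hz ⟨_, LieClassical.SympCenter.lower_mem m hT⟩).symm)
  refine ⟨a, fun v => ?_⟩
  rw [linHom_apply]
  change z.1 *ᵥ v = a • v
  rw [ha, smul_mulVec, one_mulVec]

/-- Chevalley-Warning for the symplectic form -/
theorem warning [Finite F] {K : ℕ} (T : Finset ((Fin m ⊕ Fin m → F) ≃ₗ[F] (Fin m ⊕ Fin m → F))) (hT : T.card ≤ K)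
    (W : Submodule F (Fin m ⊕ Fin m → F)) (hW : 2 * (K * K) + 1 ≤ Module.finrank F W) :
    ∃ v ∈ W, v ≠ 0 ∧ ∀ s ∈ T, ∀ t ∈ T, (D m F).f (s v) (t v) = 0 ∧ (D m F).Q (s v) = 0 := by
  let B : T × T → LinearMap.BilinForm F W := fun st =>
    LinearMap.mk₂ F (fun u w => (D m F).f (st.1.1 u.1) (st.2.1 w.1))
      (fun u v w => by rw [Submodule.coe_add, map_add, (D m F).add_left])
      (fun a u w => by rw [Submodule.coe_smul, map_smul, (D m F).smul_left]; rfl)
      (fun u v w => by rw [Submodule.coe_add, map_add, (D m F).add_right])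
      (fun a u w => by rw [Submodule.coe_smul, map_smul, (D m F).smul_right]; rfl)
  obtain ⟨u, hu, h⟩ := H954.CWarn.exists_common_zero B (by
    rw [Fintype.card_prod, Fintype.card_coe]
    have : T.card * T.card ≤ K * K := Nat.mul_le_mul hT hT
    omega)
  refine ⟨u.1, u.2, fun h0 => hu (Subtype.ext h0), fun s hs t ht => ⟨h (⟨s, hs⟩, ⟨t, ht⟩), rfl⟩⟩

theorem large_psp (hC : Cfsg.Agent.H851.Sims.FormsCore) (c K : ℕ) : ∃ n₀ : ℕ, ∀ m : ℕ, n₀ ≤ m → ∀ (F : Type) [Field F]
    [Finite F] (r : ℕ) [Fact r.Prime] [CharP F r]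
    (Z : Subgroup (Cfsg.PSp m F)), Nat.card Z ≤ K → (Nat.card Z).Coprime r →
    ∃ E : Subgroup (Cfsg.PSp m F), E ≤ Subgroup.centralizer (Z : Set _) ∧ IsPGroup r E ∧ c < Nat.card E := by
  obtain ⟨n₀, H⟩ := SimsRed.large_of_core hC c K (2 * (K * K) + 1)
  refine ⟨n₀, ?_⟩
  intro m hm F _ _ r _ _ Z hZ1 hZ2
  have : Finite (symplecticGroup (Fin m) F) := Subtype.finite
  refine H F (Fin m ⊕ Fin m → F) r (D m F) (symplecticGroup (Fin m) F) (Phi m F) ?_
    (linHom_injective _ Subtype.val_injective) range_le ?_ center_scalar ?_ Z hZ1 hZ2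
  · rw [Module.finrank_pi, Fintype.card_sum, Fintype.card_fin]
    omega
  · refine le_trans ?_ le_range
    rw [Subgroup.commutator_le]
    intro x hx y hy
    exact mul_mem (mul_mem (mul_mem hx hy) (inv_mem hx)) (inv_mem hy)
  · intro T hT _ W _ hW
    exact warning T hT W hW

end Cfsg.Agent.H978.SimsPSp
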